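import Cfsg.Agent.H269.LQ.TT
import Cfsg.Agent.KFacts.M23.OutOne

/-!
# The row `M23` (S4114, helper269)

`M23` is 2-transitive on 23 points with point stabiliser `M22`.
-/

set_option autoImplicit false
set_option linter.unusedSectionVars false

namespace Cfsg.Agent.H269.LQ.M23

open Cfsg Subgroup Cfsg.Agent.H459.Rad Cfsg.Agent.H459.Gallery Cfsg.Agent.H544.LQ Cfsg.Agent.H269.LQ
open Cfsg.Agent.Schreier.MTwentyThree
open Cfsg.Agent.SporadicA.MathieuRecog (mem_M22_iff mem_M23_iff card_M22 card_M23 M22_le simple_M22)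

universe u

/-- the 23 points -/
abbrev Om : Type := {y : GolayPt // y ≠ none}

/-- the action -/
instance act : MulAction Spor.M23 Om where
  smul g ω := ⟨(g : Equiv.Perm GolayPt) ω.1, apply_ne g ω.2⟩
  one_smul _ := Subtype.ext rfl
  mul_smul _ _ _ := Subtype.ext rfl

theorem smul_val (g : Spor.M23) (ω : Om) : (g • ω).1 = (g : Equiv.Perm GolayPt) ω.1 := rfl

theorem eq_of_smul {g h : Spor.M23} (H : ∀ ω : Om, g • ω = h • ω) : g = h := by
  apply Subtype.ext
  apply Equiv.ext
  intro y
  by_cases hy : y = none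
  · rw [hy, apply_none, apply_none]
  · exact congrArg Subtype.val (H ⟨y, hy⟩)

theorem card_Om : Nat.card Om = 23 := by
  rw [Nat.card_eq_fintype_card, Fintype.card_subtype]
  refine (congrArg Finset.card ?_).trans card_pts
  ext y
  simp

theorem trans_one (a b : Om) : ∃ g : Spor.M23, g • a = b := by
  obtain ⟨g, hg⟩ := exists_one a.2 b.2
  exact ⟨g, Subtype.ext hg⟩

theorem trans_two (a b c d : Om) (hab : a ≠ b) (hcd : c ≠ d) : ∃ g : Spor.M23, g • a = c ∧ g • b = d := by
  obtain ⟨g, h1, h2⟩ := exists_two a.2 b.2 (fun h => hab (Subtype.ext h)) c.2 d.2 (fun h => hcd (Subtype.ext h))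
  exact ⟨g, Subtype.ext h1, Subtype.ext h2⟩

/-- elements of order 23 -/
theorem mem_zpowers_of_commute {z : Spor.M23} (hz : orderOf z = 23) {m : Spor.M23} (hm : m * z = z * m) :
    m ∈ zpowers z := by
  have h23 : Fact (Nat.Prime 23) := ⟨by norm_num⟩
  -- a moved point
  obtain ⟨ω₀, hω₀⟩ : ∃ ω : Om, z • ω ≠ ω := by
    by_contra hcon
    push Not at hcon
    have h1 : z = 1 := eq_of_smul fun ω => by rw [hcon ω, one_smul]
    rw [h1, orderOf_one] at hz
    omega
  have hcardz : Nat.card (zpowers z) = 23 := by rw [Nat.card_zpowers, hz]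
  -- the orbit is everything
  have horb : MulAction.orbit (zpowers z) ω₀ = Set.univ := by
    have h1 : (MulAction.stabilizer (zpowers z) ω₀).index = (MulAction.orbit (zpowers z) ω₀).ncard :=
      MulAction.index_stabilizer _ _
    have h2 : (MulAction.stabilizer (zpowers z) ω₀).index ∣ 23 := by
      rw [← hcardz]
      exact Subgroup.index_dvd_card _
    rcases (Nat.dvd_prime h23.out).1 h2 with h3 | h3
    · exfalso
      apply hω₀
      have h4 : MulAction.stabilizer (zpowers z) ω₀ = ⊤ := Subgroup.index_eq_one.1 h3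
      have h5 : (⟨z, Subgroup.mem_zpowers z⟩ : zpowers z) ∈ MulAction.stabilizer (zpowers z) ω₀ := by rw [h4]; trivial
      exact h5
    · exact Set.eq_of_subset_of_ncard_le (Set.subset_univ _) (by rw [Set.ncard_univ, card_Om, ← h1, h3])
  have hex : ∀ ω : Om, ∃ k : ℤ, z ^ k • ω₀ = ω := by
    intro ω
    have h1 : ω ∈ MulAction.orbit (zpowers z) ω₀ := by rw [horb]; trivial
    obtain ⟨⟨_, k, rfl⟩, hk⟩ := h1
    exact ⟨k, hk⟩
  obtain ⟨k, hk⟩ := hex (m • ω₀)
  refine ⟨k, eq_of_smul fun ω => ?_⟩
  obtain ⟨i, rfl⟩ := hex ω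
  have h1 : m * z ^ i = z ^ i * m := (Commute.zpow_right hm i).eq
  rw [← mul_smul, ← mul_smul, h1, mul_smul (z ^ i) m, ← hk, ← mul_smul]
  congr 1
  exact (Commute.refl z).zpow_zpow k i

/-- a 23-element is conjugate to another power of itself -/
theorem exists_normalizing {z : Spor.M23} (hz : orderOf z = 23) :
    ∃ g : Spor.M23, g * z * g⁻¹ ∈ zpowers z ∧ g ∉ zpowers z := by
  have h23 : Fact (Nat.Prime 23) := ⟨by norm_num⟩
  have hcardz : Nat.card (zpowers z) = 23 := by rw [Nat.card_zpowers, hz]
  have hp : IsPGroup 23 (zpowers z) := IsPGroup.of_card (n := 1) (by rw [hcardz, pow_one])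
  obtain ⟨P, hP⟩ := hp.exists_le_sylow
  have hPc : Nat.card P = 23 := by
    rw [P.card_eq_multiplicity, card_M23]
    have : Nat.factorization 10200960 23 = 1 := by
      rw [Nat.factorization_def _ h23.out]
      have e : 10200960 = 23 ^ 1 * 443520 := by norm_num
      rw [e, padicValNat.mul (by norm_num) (by norm_num), padicValNat.prime_pow,
        padicValNat.eq_zero_of_not_dvd (by norm_num)]
    rw [this, pow_one]
  have hPz : zpowers z = (P : Subgroup Spor.M23) := Subgroup.eq_of_le_of_card_ge hP (by rw [hPc, hcardz])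
  by_contra hcon
  push Not at hcon
  have hN : normalizer (P : Set Spor.M23) = (P : Subgroup Spor.M23) := by
    apply le_antisymm _ le_normalizer
    intro g hg
    have hg' : g ∈ normalizer ((P : Subgroup Spor.M23) : Set Spor.M23) := hg
    rw [← hPz] at hg' ⊢
    exact hcon g ((Subgroup.mem_normalizer_iff.1 hg' z).1 (Subgroup.mem_zpowers z))
  have h1 := card_sylow_modEq_one 23 Spor.M23
  rw [P.card_eq_index_normalizer, hN] at h1
  have h2 := Subgroup.card_mul_index (P : Subgroup Spor.M23)
  rw [hPc, card_M23] at h2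
  have h3 : (P : Subgroup Spor.M23).index = 443520 := by omega
  rw [h3] at h1
  exact absurd h1 (by decide)

theorem St_ne_top : St (some 0) ≠ ⊤ := by
  intro h
  have h1 := card_St (x := some 0) (by simp)
  rw [h, Subgroup.card_top, card_M23] at h1
  omega

theorem rad_St : solvableRadical (St (some 0)) = ⊥ := by
  have e : Spor.M22 ≃* St (some 0) := (Subgroup.subgroupOfEquivOfLe M22_le).symm.trans (MulEquiv.subgroupCongr St_zero)
  have h1 : IsSimpleGroup Spor.M22 := simple_M22
  have h2 : IsSimpleGroup (St (some 0)) := e.symm.isSimpleGroup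
  refine rad_eq_bot_of_simple fun hs => ?_
  have h3 := card_St (x := some 0) (by simp)
  have h4 := (IsSimpleGroup.comm_iff_isSolvable (G := St (some 0))).2 hs
  let _ : CommGroup (St (some 0)) := { (inferInstance : Group (St (some 0))) with mul_comm := h4 }
  have h5 := IsSimpleGroup.prime_card (α := St (some 0))
  rw [h3] at h5
  exact absurd h5 (by norm_num)

/-- **the row `M23`** -/
theorem row_M23 : Row Spor.M23 := by
  intro x hx
  obtain ⟨m, rfl⟩ := KFacts.M23.OutOne.exists_conj x
  have h23 : Fact (Nat.Prime 23) := ⟨by norm_num⟩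
  have hm1 : m ≠ 1 := by
    rintro rfl
    exact hx.ne (map_one _)
  rcases lat_tt hx.lat (Ω := Om) trans_two trans_one (MulAction.toPerm m) (fun g ω => by
    rw [MulAction.toPerm_apply, MulAction.toPerm_apply, MulAut.conj_apply, ← mul_smul, ← mul_smul]
    congr 1
    group) with ⟨ω, hω, -⟩ | hC
  · -- a fixed point
    obtain ⟨g, hg⟩ := trans_one ⟨some 0, by simp⟩ ω
    have hω' : m • ω = ω := hω
    have h1 : cx (MulAut.conj m) g = MulAut.conj (g⁻¹ * m * g) := by
      refine MulEquiv.ext fun k => ?_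
      rw [cx_apply, MulAut.conj_apply, MulAut.conj_apply]
      group
    have h2 : g⁻¹ * m * g ∈ St (some 0) := by
      have h3 : (g⁻¹ * m * g) • (⟨some 0, by simp⟩ : Om) = ⟨some 0, by simp⟩ := by
        rw [mul_smul, mul_smul, hg, hω', ← hg, inv_smul_smul]
      exact congrArg Subtype.val h3
    have h4 : cx (MulAut.conj m) g = 1 := by
      refine eq_one_of_fix _ fun s hs => (hx.rc.cx g).eq_of_rad_eq_bot St_ne_top ?_ rad_St hs
      intro s hs
      rw [h1, MulAut.conj_apply]
      exact mul_mem (mul_mem h2 hs) (inv_mem h2)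
    have h5 : MulAut.conj m = 1 := by
      have h6 : cx (MulAut.conj m) g = (MulAut.conj g)⁻¹ * MulAut.conj m * MulAut.conj g := rfl
      rw [h6] at h4
      have h7 : MulAut.conj m = MulAut.conj g * ((MulAut.conj g)⁻¹ * MulAut.conj m * MulAut.conj g) * (MulAut.conj g)⁻¹ := by
        group
      rw [h7, h4]
      group
    exact hx.ne h5
  · -- the centraliser is transitive
    set C : Subgroup Spor.M23 := centralizer {m} with hCdef
    have hCm : ∀ c : Spor.M23, c ∈ C ↔ MulAut.conj m c = c := by
      intro c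
      rw [hCdef, mem_centralizer_singleton_iff, MulAut.conj_apply, mul_inv_eq_iff_eq_mul]
      exact eq_comm
    have h1 : 23 ∣ Nat.card C := by
      have h2 : (MulAction.stabilizer C (⟨some 0, by simp⟩ : Om)).index =
          (MulAction.orbit C (⟨some 0, by simp⟩ : Om)).ncard := MulAction.index_stabilizer _ _
      have h3 : MulAction.orbit C (⟨some 0, by simp⟩ : Om) = Set.univ := by
        apply Set.eq_univ_of_forall
        intro ω
        obtain ⟨c, hc, hc'⟩ := hC ⟨some 0, by simp⟩ ω
        exact ⟨⟨c, (hCm c).2 hc⟩, hc'⟩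
      rw [h3, Set.ncard_univ, card_Om] at h2
      rw [← h2]
      exact Subgroup.index_dvd_card _
    obtain ⟨⟨z, hzC⟩, hz⟩ := exists_prime_orderOf_dvd_card' 23 h1
    rw [Subgroup.orderOf_mk] at hz
    rw [hCdef, mem_centralizer_singleton_iff] at hzC
    obtain ⟨k, hk⟩ := mem_zpowers_of_commute hz hzC.symm
    have hzm : z ∈ zpowers m := by
      have h2 : zpowers m ≤ zpowers z := by
        rw [zpowers_le]
        exact ⟨k, hk⟩
      have h3 : Nat.card (zpowers m) = 23 := by
        have h4 := Subgroup.card_dvd_of_le h2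
        rw [Nat.card_zpowers z, hz] at h4
        rcases (Nat.dvd_prime h23.out).1 h4 with h5 | h5
        · rw [Nat.card_zpowers, orderOf_eq_one_iff] at h5
          exact absurd h5 hm1
        · exact h5
      rw [Subgroup.eq_of_le_of_card_ge h2 (by rw [h3, Nat.card_zpowers, hz])]
      exact Subgroup.mem_zpowers z
    obtain ⟨g, hg, hgz⟩ := exists_normalizing hz
    have hk' : z ^ k = m := hk
    have hg' : g * m * g⁻¹ * m⁻¹ ∈ zpowers z := by
      refine mul_mem ?_ (inv_mem ⟨k, hk⟩)
      obtain ⟨i, hi⟩ := hg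
      have hi' : z ^ i = g * z * g⁻¹ := hi
      refine ⟨i * k, ?_⟩
      show z ^ (i * k) = _
      rw [zpow_mul, hi', conj_zpow, hk']
    have h2 := comm_eq hx.lat (g := g⁻¹) (by
      have h3 : (g⁻¹)⁻¹ * MulAut.conj m g⁻¹ = g * m * g⁻¹ * m⁻¹ := by
        rw [MulAut.conj_apply]; group
      rw [h3, MulAut.conj_apply, mul_inv_eq_iff_eq_mul]
      obtain ⟨j, hj⟩ := hg'
      have hj' : z ^ j = g * m * g⁻¹ * m⁻¹ := hj
      rw [← hj', ← hk', ← zpow_add, ← zpow_add, add_comm])
    have h3 : g * m = m * g := by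
      rw [MulAut.conj_apply, inv_inv] at h2
      have h4 : g * m * g⁻¹ = m := by
        rw [← mul_inv_eq_one]
        rw [← h2]; group
      rw [← h4]
      nth_rewrite 2 [← h4]
      group
    apply hgz
    apply mem_zpowers_of_commute hz
    obtain ⟨j, hj⟩ := hzm
    have hj' : m ^ j = z := hj
    rw [← hj']
    exact (Commute.zpow_right (show Commute g m from h3) j).eq

theorem row {K : Type u} [Group K] [Finite K] (h : Spor.IsoM23 K) : Row K := by
  obtain ⟨e⟩ := h
  exact row_congr e row_M23

end Cfsg.Agent.H269.LQ.M23
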