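import Cfsg.Agent.H544.LQ.Defs

/-!
# Latin quandle automorphisms of 2-transitive groups (S4114, helper269)

* `comm_eq` : `x (g⁻¹ x(g)) = g⁻¹ x(g)` implies `g⁻¹ x(g) = 1`;
* `card_fiber` : `(c, g) ↦ c g⁻¹ x(g)` has fibres of order `|C|`, `C` the fixed points;
* **`lat_tt`** : `K` 2-transitive on `Ω`, `π : Perm Ω`, `π (g ω) = x(g) π(ω)`: `π` has exactly one fixed point, or `C` is
  transitive on `Ω`;
* `lat_tr`, `row_congr` : isomorphisms.
-/

set_option autoImplicit false
set_option linter.unusedSectionVars false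

namespace Cfsg.Agent.H269.LQ

open Cfsg Subgroup Cfsg.Agent.H459.Rad Cfsg.Agent.H459.Gallery Cfsg.Agent.H544.LQ

section iso

variable {K L : Type*} [Group K] [Group L]

theorem lat_tr (e : K ≃* L) {x : MulAut K} (h : Lat x) : Lat (tr e x) := by
  intro c g k hc he
  have h1 : e.symm c = 1 := by
    refine h (e.symm c) (e.symm g) (e.symm k) ?_ ?_
    · have h2 := congrArg e.symm hc
      rwa [tr_apply, e.symm_apply_apply] at h2
    · have h2 := congrArg e.symm he
      simp only [map_mul, map_inv, tr_apply, e.symm_apply_apply] at h2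
      exact h2
  rwa [map_eq_one_iff _ e.symm.injective] at h1

theorem hyp_tr [Finite K] [Finite L] (e : K ≃* L) {x : MulAut K} (h : Hyp x) : Hyp (tr e x) where
  ne h1 := h.ne ((trE e).injective (h1.trans (map_one (trE e)).symm))
  lat := lat_tr e h.lat
  rc := h.rc.tr e

theorem row_congr [Finite K] [Finite L] (e : K ≃* L) (h : Row L) : Row K := fun _ hx => h _ (hyp_tr e hx)

end iso

section basic

variable {K : Type*} [Group K] {x : MulAut K}

/-- `x` commutes with no other conjugate -/
theorem comm_eq (h : Lat x) {g : K} (hg : x (g⁻¹ * x g) = g⁻¹ * x g) : g⁻¹ * x g = 1 := by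
  have h1 := h (g⁻¹ * x g)⁻¹ g 1 (by rw [map_inv, hg]) (by rw [inv_mul_cancel]; simp)
  rwa [inv_eq_one] at h1

end basic

section count

variable {K : Type*} [Group K] [Fintype K] [DecidableEq K] {x : MulAut K}

/-- the fixed points -/
def Cs (x : MulAut K) : Finset K := Finset.univ.filter fun c => x c = c

theorem mem_Cs {c : K} : c ∈ Cs x ↔ x c = c := by simp [Cs]

theorem one_mem_Cs : (1 : K) ∈ Cs x := mem_Cs.2 (map_one x)

/-- the fibre of `y` -/
def fib (x : MulAut K) (y : K) : Finset (K × K) :=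
  (Cs x ×ˢ Finset.univ).filter fun a => a.1 * (a.2⁻¹ * x a.2) = y

theorem card_fib_le (h : Lat x) (y : K) : (fib x y).card ≤ (Cs x).card := by
  rcases (fib x y).eq_empty_or_nonempty with h0 | ⟨⟨c, g⟩, hcg⟩
  · rw [h0, Finset.card_empty]
    exact Nat.zero_le _
  · simp only [fib, Finset.mem_filter, Finset.mem_product, Finset.mem_univ, and_true] at hcg
    refine Finset.card_le_card_of_injOn (fun a => a.2 * g⁻¹) ?_ ?_
    · rintro ⟨c', g'⟩ h1
      simp only [fib, Finset.coe_filter, Finset.mem_product, Finset.mem_univ, and_true, Set.mem_ofPred_eq] at h1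
      have h2 := mem_Cs.1 hcg.1
      have h3 := mem_Cs.1 h1.1
      have h4 : c'⁻¹ * c = 1 := by
        refine h (c'⁻¹ * c) g g' (by rw [map_mul, map_inv, h2, h3]) ?_
        rw [mul_assoc, hcg.2, ← h1.2, inv_mul_cancel_left]
      have h5 : c' = c := (inv_mul_eq_one.1 h4)
      subst h5
      have h6 : g⁻¹ * x g = g'⁻¹ * x g' := mul_left_cancel (hcg.2.trans h1.2.symm)
      simp only [Finset.mem_coe]
      rw [mem_Cs, map_mul, map_inv]
      calc x g' * (x g)⁻¹ = g' * (g'⁻¹ * x g') * (x g)⁻¹ := by group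
        _ = g' * (g⁻¹ * x g) * (x g)⁻¹ := by rw [h6]
        _ = g' * g⁻¹ := by group
    · rintro ⟨c₁, g₁⟩ h1 ⟨c₂, g₂⟩ h2 he
      simp only [fib, Finset.coe_filter, Finset.mem_product, Finset.mem_univ, and_true, Set.mem_ofPred_eq] at h1 h2
      have h3 : g₁ = g₂ := mul_right_cancel he
      subst h3
      have h4 : c₁ = c₂ := mul_right_cancel (h1.2.trans h2.2.symm)
      rw [h4]

theorem card_fib (h : Lat x) (y : K) : (fib x y).card = (Cs x).card := by
  have h1 : ∑ y : K, (fib x y).card = ∑ _y : K, (Cs x).card := by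
    have h2 := Finset.card_eq_sum_card_fiberwise (s := Cs x ×ˢ (Finset.univ : Finset K)) (t := (Finset.univ : Finset K))
      (f := fun a => a.1 * (a.2⁻¹ * x a.2)) (fun _ _ => Finset.mem_coe.2 (Finset.mem_univ _))
    rw [Finset.card_product] at h2
    rw [Finset.sum_const, smul_eq_mul, mul_comm, h2]
    rfl
  exact (Finset.sum_eq_sum_iff_of_le (fun y _ => card_fib_le h y)).1 h1 y (Finset.mem_univ _)

variable {Ω : Type*} [MulAction K Ω] [Fintype Ω] [DecidableEq Ω] {π : Equiv.Perm Ω}

/-- the number of conjugates of `π` which map `ω` to `ω'` -/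
def Fn (K : Type*) [Group K] [Fintype K] {Ω : Type*} [MulAction K Ω] [DecidableEq Ω] (π : Equiv.Perm Ω) (ω ω' : Ω) :
    ℕ := ((Finset.univ : Finset K).filter fun g => π (g • ω) = g • ω').card

theorem Fn_smul (k : K) (ω ω' : Ω) : Fn K π (k • ω) (k • ω') = Fn K π ω ω' := by
  unfold Fn
  refine Finset.card_bij' (fun g _ => g * k) (fun g _ => g * k⁻¹) ?_ ?_ ?_ ?_
  · intro g hg
    simp only [Finset.mem_filter, Finset.mem_univ, true_and] at hg ⊢
    rwa [mul_smul, mul_smul]
  · intro g hg
    simp only [Finset.mem_filter, Finset.mem_univ, true_and] at hg ⊢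
    rwa [mul_smul, inv_smul_smul, mul_smul, inv_smul_smul]
  · intro g _
    simp
  · intro g _
    simp

theorem sum_Fn (hπ : ∀ (g : K) (ω : Ω), π (g • ω) = x g • π ω) (h : Lat x) (ω ω' : Ω) :
    ∑ c ∈ Cs x, Fn K π ω (c⁻¹ • ω') = (Cs x).card * ((Finset.univ : Finset K).filter fun y => y • π ω = ω').card := by
  have h1 : ∀ c : K, Fn K π ω (c⁻¹ • ω') =
      ((Finset.univ : Finset K).filter fun g => (c * (g⁻¹ * x g)) • π ω = ω').card := by
    intro c
    unfold Fn
    congr 1
    ext g
    simp only [Finset.mem_filter, Finset.mem_univ, true_and]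
    rw [hπ]
    constructor
    · intro h2
      rw [mul_smul, mul_smul, h2, inv_smul_smul, smul_inv_smul]
    · intro h2
      rw [← h2, mul_smul, inv_smul_smul, mul_smul, smul_inv_smul]
  simp only [h1]
  -- count the pairs
  have h2 : ∑ c ∈ Cs x, ((Finset.univ : Finset K).filter fun g => (c * (g⁻¹ * x g)) • π ω = ω').card =
      ((Cs x ×ˢ (Finset.univ : Finset K)).filter fun a => (a.1 * (a.2⁻¹ * x a.2)) • π ω = ω').card := by
    rw [Finset.card_filter, Finset.sum_product]
    refine Finset.sum_congr rfl fun c _ => ?_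
    rw [Finset.card_filter]
  rw [h2, Finset.card_eq_sum_card_fiberwise (t := (Finset.univ : Finset K).filter fun y => y • π ω = ω')
    (f := fun a => a.1 * (a.2⁻¹ * x a.2))]
  · have h3 : ∀ y ∈ (Finset.univ : Finset K).filter fun y => y • π ω = ω',
        (((Cs x ×ˢ (Finset.univ : Finset K)).filter fun a => (a.1 * (a.2⁻¹ * x a.2)) • π ω = ω').filter
          fun a => a.1 * (a.2⁻¹ * x a.2) = y).card = (Cs x).card := by
      intro y hy
      rw [Finset.mem_filter] at hy
      rw [← card_fib h y]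
      unfold fib
      congr 1
      ext a
      simp only [Finset.mem_filter]
      constructor
      · rintro ⟨⟨h4, -⟩, h5⟩
        exact ⟨h4, h5⟩
      · rintro ⟨h4, h5⟩
        exact ⟨⟨h4, by rw [h5]; exact hy.2⟩, h5⟩
    rw [Finset.sum_congr rfl h3, Finset.sum_const, smul_eq_mul, mul_comm]
  · intro a ha
    simp only [Finset.coe_filter, Set.mem_ofPred_eq] at ha ⊢
    exact ⟨Finset.mem_univ _, ha.2⟩

end count

/-- **The 2-transitive trick.** -/
theorem lat_tt {K : Type*} [Group K] [Finite K] {x : MulAut K} (h : Lat x) {Ω : Type*}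
    [MulAction K Ω] [Finite Ω] (h2 : ∀ a b c d : Ω, a ≠ b → c ≠ d → ∃ g : K, g • a = c ∧ g • b = d)
    (h1 : ∀ a b : Ω, ∃ g : K, g • a = b) (π : Equiv.Perm Ω) (hπ : ∀ (g : K) (ω : Ω), π (g • ω) = x g • π ω) :
    (∃! ω, π ω = ω) ∨ ∀ ω ω' : Ω, ∃ c : K, x c = c ∧ c • ω = ω' := by
  classical
  have := Fintype.ofFinite K
  have := Fintype.ofFinite Ω
  rcases isEmpty_or_nonempty Ω with hΩ | ⟨⟨ω₀⟩⟩
  · exact Or.inr fun ω => (hΩ.false ω).elim
  by_cases hne : ∃ ω₁ : Ω, ω₁ ≠ ω₀
  swap
  · push Not at hne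
    left
    refine ⟨ω₀, hne _, fun y _ => hne y⟩
  obtain ⟨ω₁, hω₁⟩ := hne
  set F0 := Fn K π ω₀ ω₀ with hF0
  set F1 := Fn K π ω₀ ω₁ with hF1
  have hF0' : ∀ ω, Fn K π ω ω = F0 := by
    intro ω
    obtain ⟨g, hg⟩ := h1 ω₀ ω
    rw [← hg, Fn_smul]
  have hF1' : ∀ ω ω' : Ω, ω ≠ ω' → Fn K π ω ω' = F1 := by
    intro ω ω' hww
    obtain ⟨g, hg, hg'⟩ := h2 ω₀ ω₁ ω ω' hω₁.symm hww
    rw [← hg, ← hg', Fn_smul]
  set N := ((Finset.univ : Finset K).filter fun y => y • π ω₀ = ω₀).card with hN
  have hN' : ∀ ω ω' : Ω, ((Finset.univ : Finset K).filter fun y => y • π ω = ω').card = N := by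
    intro ω ω'
    obtain ⟨a, ha⟩ := h1 (π ω) (π ω₀)
    obtain ⟨b, hb⟩ := h1 ω' ω₀
    refine Finset.card_bij' (fun y _ => b * y * a⁻¹) (fun y _ => b⁻¹ * y * a) ?_ ?_ ?_ ?_
    · intro y hy
      simp only [Finset.mem_filter, Finset.mem_univ, true_and] at hy ⊢
      rw [← ha, mul_smul, inv_smul_smul, mul_smul, hy, hb]
    · intro y hy
      simp only [Finset.mem_filter, Finset.mem_univ, true_and] at hy ⊢
      rw [mul_smul, ha, mul_smul, hy, ← hb, inv_smul_smul]
    · intro y _
      group
    · intro y _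
      group
  have key : ∀ ω ω' : Ω, (Cs x).card * N = ((Cs x).filter fun c => c • ω = ω').card * F0 +
      ((Cs x).filter fun c => ¬ c • ω = ω').card * F1 := by
    intro ω ω'
    have h3 := sum_Fn hπ h ω ω'
    rw [hN'] at h3
    rw [← h3, ← Finset.sum_filter_add_sum_filter_not (Cs x) (fun c => c • ω = ω')]
    congr 1
    · rw [← smul_eq_mul, ← Finset.sum_const]
      refine Finset.sum_congr rfl fun c hc => ?_
      rw [Finset.mem_filter] at hc
      rw [← hc.2, inv_smul_smul, hF0']
    · rw [← smul_eq_mul, ← Finset.sum_const]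
      refine Finset.sum_congr rfl fun c hc => ?_
      rw [Finset.mem_filter] at hc
      refine hF1' _ _ fun he => hc.2 ?_
      rw [he, smul_inv_smul]
  have hadd : ∀ ω ω' : Ω, ((Cs x).filter fun c => c • ω = ω').card + ((Cs x).filter fun c => ¬ c • ω = ω').card =
      (Cs x).card := fun ω ω' => Finset.card_filter_add_card_filter_not _
  by_cases hF : F0 = F1
  · -- exactly one fixed point
    left
    have e1 : Fintype.card Ω * F0 = Fintype.card K := by
      have h3 : ∑ ω' : Ω, Fn K π ω₀ ω' = Fintype.card K := by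
        unfold Fn
        have h4 := Finset.card_eq_sum_card_fiberwise (s := (Finset.univ : Finset K)) (t := (Finset.univ : Finset Ω))
          (f := fun g => g⁻¹ • π (g • ω₀)) (fun _ _ => Finset.mem_coe.2 (Finset.mem_univ _))
        rw [Finset.card_univ] at h4
        rw [h4]
        refine Finset.sum_congr rfl fun ω' _ => ?_
        congr 1
        ext g
        simp only [Finset.mem_filter, Finset.mem_univ, true_and]
        rw [inv_smul_eq_iff]
      rw [← h3, ← smul_eq_mul, ← Finset.card_univ, ← Finset.sum_const]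
      refine Finset.sum_congr rfl fun ω' _ => ?_
      by_cases hw : ω₀ = ω'
      · rw [← hw]
      · rw [hF1' _ _ hw, hF]
    have e2 : Fintype.card Ω * F0 = Fintype.card K * ((Finset.univ : Finset Ω).filter fun ω => π ω = ω).card := by
      have h3 : ∑ ω : Ω, Fn K π ω ω = ∑ g : K, ((Finset.univ : Finset Ω).filter fun ω => π (g • ω) = g • ω).card := by
        unfold Fn
        simp only [Finset.card_filter]
        exact Finset.sum_comm
      have h4 : ∀ g : K, ((Finset.univ : Finset Ω).filter fun ω => π (g • ω) = g • ω).card =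
          ((Finset.univ : Finset Ω).filter fun ω => π ω = ω).card := by
        intro g
        refine Finset.card_bij' (fun ω _ => g • ω) (fun ω _ => g⁻¹ • ω) ?_ ?_ ?_ ?_
        · intro ω hω
          simp only [Finset.mem_filter, Finset.mem_univ, true_and] at hω ⊢
          exact hω
        · intro ω hω
          simp only [Finset.mem_filter, Finset.mem_univ, true_and] at hω ⊢
          rwa [smul_inv_smul]
        · intro ω _
          exact inv_smul_smul _ _
        · intro ω _
          exact smul_inv_smul _ _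
      rw [Finset.sum_congr rfl fun g _ => h4 g, Finset.sum_const, Finset.card_univ, smul_eq_mul] at h3
      rw [← h3, ← smul_eq_mul, ← Finset.card_univ, ← Finset.sum_const]
      exact Finset.sum_congr rfl fun ω _ => (hF0' ω).symm
    have e3 : ((Finset.univ : Finset Ω).filter fun ω => π ω = ω).card = 1 := by
      have h3 : 0 < Fintype.card K := Fintype.card_pos
      rw [e1] at e2
      have h4 : Fintype.card K * ((Finset.univ : Finset Ω).filter fun ω => π ω = ω).card = Fintype.card K * 1 := by
        rw [← e2, mul_one]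
      exact Nat.eq_of_mul_eq_mul_left h3 h4
    obtain ⟨ω, hω⟩ := Finset.card_eq_one.1 e3
    refine ⟨ω, ?_, fun y hy => ?_⟩
    · have h3 : ω ∈ (Finset.univ : Finset Ω).filter fun ω => π ω = ω := by rw [hω]; exact Finset.mem_singleton_self _
      exact (Finset.mem_filter.1 h3).2
    · have h3 : y ∈ (Finset.univ : Finset Ω).filter fun ω => π ω = ω := Finset.mem_filter.2 ⟨Finset.mem_univ _, hy⟩
      rwa [hω, Finset.mem_singleton] at h3
  · -- `C` is transitive
    right
    intro ω ω'
    have h3 := key ω ω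
    have h4 := key ω ω'
    have h5 := hadd ω ω
    have h6 := hadd ω ω'
    have h7 : 0 < ((Cs x).filter fun c => c • ω = ω).card :=
      Finset.card_pos.2 ⟨1, Finset.mem_filter.2 ⟨one_mem_Cs, one_smul _ _⟩⟩
    have h8 : ((Cs x).filter fun c => c • ω = ω').card = ((Cs x).filter fun c => c • ω = ω).card := by
      have h9 : (F0 : ℤ) - F1 ≠ 0 := by
        intro h10
        apply hF
        omega
      have e1 : (((Cs x).filter fun c => c • ω = ω').card : ℤ) * (F0 - F1) =
          (((Cs x).filter fun c => c • ω = ω).card : ℤ) * (F0 - F1) := by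
        have h3' : ((Cs x).card : ℤ) * N = (((Cs x).filter fun c => c • ω = ω).card : ℤ) * F0 +
            (((Cs x).filter fun c => ¬ c • ω = ω).card : ℤ) * F1 := by exact_mod_cast h3
        have h4' : ((Cs x).card : ℤ) * N = (((Cs x).filter fun c => c • ω = ω').card : ℤ) * F0 +
            (((Cs x).filter fun c => ¬ c • ω = ω').card : ℤ) * F1 := by exact_mod_cast h4
        have h5' : (((Cs x).filter fun c => ¬ c • ω = ω).card : ℤ) = (Cs x).card -
            (((Cs x).filter fun c => c • ω = ω).card : ℤ) := by omega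
        have h6' : (((Cs x).filter fun c => ¬ c • ω = ω').card : ℤ) = (Cs x).card -
            (((Cs x).filter fun c => c • ω = ω').card : ℤ) := by omega
        rw [h5'] at h3'
        rw [h6'] at h4'
        linear_combination h3' - h4'
      exact_mod_cast mul_right_cancel₀ h9 e1
    rw [← h8] at h7
    obtain ⟨c, hc⟩ := Finset.card_pos.1 h7
    rw [Finset.mem_filter] at hc
    exact ⟨c, mem_Cs.1 hc.1, hc.2⟩

end Cfsg.Agent.H269.LQ
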